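import Cfsg.Agent.H96.Wf.Hom
import Cfsg.Agent.H491.Rad3.B

/-!
# S3826: the Baby Monster, `p = 3` (helper96)

`Fi23 < B` has index prime to 3.
-/

set_option autoImplicit false
set_option linter.style.haveILetI false

namespace Cfsg.Agent.H96.Wf.B

open Subgroup Cfsg Cfsg.Agent.H533.Wf Cfsg.Agent.H96.Wf.Hom

universe u v

theorem wfRow_b {K : Type v} [Group K] (h : Cfsg.Spor.IsoB K) : WfRow.{u, v} 3 K := by
  haveI : Fact (Nat.Prime 3) := ⟨Nat.prime_three⟩
  have hinn := Cfsg.Agent.BpSpor.Inn.b h 3 Nat.prime_three (by norm_num)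
  obtain ⟨e⟩ := Cfsg.Agent.KFacts.Baby.RowB.exists_iso h
  have hfin : Finite Cfsg.Agent.BabyM.Inst.M.G := Cfsg.Agent.BabyM.Instance.all.finite_G
  have hKfin : Finite K := Finite.of_equiv _ e.toEquiv
  obtain ⟨M, hM⟩ := Cfsg.Agent.BabyM.Fi23B.main Cfsg.Agent.BabyM.Instance.all Cfsg.Agent.BabyM.Instance.ok
    Cfsg.Agent.S1697.result
  have hB : Nat.card Cfsg.Agent.BabyM.Inst.M.G = 4154781481226426191177580544000000 :=
    Cfsg.Agent.BabyM.Instance.isB.2
  have hcM : Nat.card M = 4089470473293004800 := hM.2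
  have hidx : M.index = 1015970529280000 := by
    have h1 := M.card_mul_index
    rw [hcM, hB] at h1
    omega
  have hsM : IsSimpleGroup M := hM.1
  -- the subgroup of `K`
  let H : Subgroup K := M.map e.toMonoidHom
  let E : M ≃* H := M.equivMapOfInjective e.toMonoidHom e.injective
  have hHs : IsSimpleGroup H := (MulEquiv.isSimpleGroup_congr E).1 hsM
  have hHi : H.index = M.index := M.index_map_equiv e
  refine wfRow_of_simple (H := H) hinn ?_ (by rw [hHi, hidx]; norm_num) hHs ?_
  · intro h1
    rw [h1, index_top, hidx] at hHi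
    norm_num at hHi
  · intro hc
    have h2 : ∀ a b : M, a * b = b * a := fun a b => by
      apply E.injective
      rw [map_mul, map_mul]
      exact hc.is_comm.comm _ _
    let _ : CommGroup M := { (inferInstance : Group M) with mul_comm := h2 }
    have h3 : (Nat.card M).Prime := IsSimpleGroup.prime_card
    rw [hcM] at h3
    norm_num at h3

end Cfsg.Agent.H96.Wf.B
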